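import Cfsg.Agent.H358.D4.Sys

/-!
# S4311, BOX A: the dimension of the members is two (helper358)

`Sys.one`: eight lines: `27 ∤ |H|`.  `Sys.four`: two 4-spaces are impossible if `H` contains elements `x`, `w` of order three, `x` of rank two,
with `[V,x]` and `w [V,x]` orthogonal.  `Sys.dec`: the decomposition.
-/

set_option autoImplicit false

namespace Cfsg.Agent.H358.D4

open Module Cfsg.Agent.H167.OP

variable {F : Type*} [Field F] {V : Type*} [AddCommGroup V] [Module F V] {G : Type*} [Group G]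
  {B : V →ₗ[F] V →ₗ[F] F} {ρ : Representation F G V} {H : Subgroup G} {O : Set (Submodule F V)}

/-- the permutation action on the members -/
def Sys.perm (S : Sys B ρ H O) : H →* Equiv.Perm O where
  toFun h :=
    { toFun := fun W => ⟨(W : Submodule F V).map (ρ h), S.inv W W.2 h h.2⟩
      invFun := fun W => ⟨(W : Submodule F V).map (ρ h⁻¹), S.inv W W.2 _ (H.inv_mem h.2)⟩
      left_inv := fun W => Subtype.ext (by
        show ((W : Submodule F V).map (ρ h)).map (ρ (h : G)⁻¹) = _
        rw [map_map, inv_mul_cancel, map_one'])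
      right_inv := fun W => Subtype.ext (by
        show ((W : Submodule F V).map (ρ (h : G)⁻¹)).map (ρ h) = _
        rw [map_map, mul_inv_cancel, map_one']) }
  map_one' := Equiv.ext fun W => Subtype.ext (map_one' _)
  map_mul' g h := Equiv.ext fun W => Subtype.ext (map_map _ _ _).symm

theorem Sys.perm_apply (S : Sys B ρ H O) (h : H) (W : O) :
    ((S.perm h W : O) : Submodule F V) = (W : Submodule F V).map (ρ h) := rfl

theorem Sys.one [Finite G] (E : Env B ρ) (S : Sys B ρ H O) (h1 : ∀ W ∈ O, finrank F W = 1) (h8 : Nat.card O = 8) :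
    ¬ 27 ∣ Nat.card H := by
  intro hd
  have hfO : Finite O := Nat.finite_of_card_ne_zero (by rw [h8]; norm_num)
  have hker : IsPGroup 2 S.perm.ker := by
    rintro ⟨h, hh⟩
    refine ⟨1, ?_⟩
    apply Subtype.ext
    apply Subtype.ext
    show (h : G) ^ 2 ^ 1 = 1
    rw [pow_one, pow_two]
    apply E.inj
    rw [map_one]
    apply LinearMap.ext
    intro u
    have htop : LinearMap.ker (ρ ((h : G) * h) - 1) = ⊤ := by
      apply S.top
      intro W hW w hw
      rw [mem_ker_sub]
      have e1 : W.map (ρ (h : G)) = W := by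
        have := congrArg (fun σ : Equiv.Perm O => ((σ ⟨W, hW⟩ : O) : Submodule F V)) (MonoidHom.mem_ker.1 hh)
        exact this
      obtain ⟨l, hl⟩ := finrank_eq_one_iff'.1 (h1 W hW)
      obtain ⟨hl0, hl⟩ := hl
      have hl0' : (l : V) ≠ 0 := fun h => hl0 (Subtype.ext h)
      have e2 : ρ (h : G) l ∈ W := e1.le ⟨l, l.2, rfl⟩
      obtain ⟨c, hc⟩ := hl ⟨_, e2⟩
      have hc' : c • (l : V) = ρ (h : G) l := congrArg Subtype.val hc
      have hBl : B l l ≠ 0 := by
        intro h0
        apply hl0'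
        apply S.nd E hW l.2
        intro w hw
        obtain ⟨d, hd⟩ := hl ⟨w, hw⟩
        have hd' : d • (l : V) = w := congrArg Subtype.val hd
        rw [← hd', map_smul, h0, smul_zero]
      have hcc : c * c = 1 := by
        have e3 := E.iso (h : G) l l
        rw [← hc', map_smul, map_smul, LinearMap.smul_apply, smul_eq_mul, smul_eq_mul, ← mul_assoc] at e3
        exact (mul_eq_right₀ hBl).1 e3
      obtain ⟨d, hd⟩ := hl ⟨w, hw⟩
      have hd' : d • (l : V) = w := congrArg Subtype.val hd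
      rw [← hd', map_smul, mul_ap, ← hc', map_smul, ← hc', smul_smul c c, hcc, one_smul]
    have : u ∈ LinearMap.ker (ρ ((h : G) * h) - 1) := by rw [htop]; trivial
    exact mem_ker_sub.1 this
  have : Fact (Nat.Prime 2) := ⟨Nat.prime_two⟩
  obtain ⟨k, hk⟩ := IsPGroup.iff_card.1 hker
  have hcard : Nat.card H = 2 ^ k * Nat.card S.perm.range := by
    rw [← hk, ← S.perm.ker.card_mul_index, Subgroup.index_ker]
  rw [hcard] at hd
  have h3 : 27 ∣ Nat.card S.perm.range :=
    (Nat.Coprime.pow_right k (by norm_num : Nat.Coprime 27 2)).dvd_of_dvd_mul_left hd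
  have h4 : Nat.card S.perm.range ∣ Nat.card (Equiv.Perm O) := Subgroup.card_subgroup_dvd_card _
  rw [Nat.card_perm, h8] at h4
  have h5 := h3.trans h4
  revert h5
  decide

/-- orthogonal families of nonisotropic vectors are independent -/
theorem indep_of_orth {J : Type*} [Fintype J] {f : J → V} (h : ∀ i j, i ≠ j → B (f i) (f j) = 0)
    (hn : ∀ i, B (f i) (f i) ≠ 0) : LinearIndependent F f := by
  classical
  rw [Fintype.linearIndependent_iff]
  intro g hg i
  have h1 := congrArg (B (f i)) hg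
  rw [map_sum, map_zero, Finset.sum_eq_single i] at h1
  · rw [map_smul, smul_eq_mul] at h1
    exact (mul_eq_zero.1 h1).resolve_right (hn i)
  · intro j _ hj
    rw [map_smul, h i j (Ne.symm hj), smul_zero]
  · intro h; exact absurd (Finset.mem_univ i) h

theorem six [FiniteDimensional F V] (E : Env B ρ) {x w : G} {v : V} (T : Thr B ρ x v) (hw : w ^ 3 = 1)
    (ho : ∀ s ∈ Submodule.span F {v, ρ x v}, ∀ s' ∈ Submodule.span F {v, ρ x v}, B s (ρ w s') = 0)
    {W : Submodule F V} (hv : ∀ s ∈ Submodule.span F {v, ρ x v}, s ∈ W) (hwW : ∀ s ∈ W, ρ w s ∈ W) :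
    6 ≤ finrank F W := by
  have h1 : v ∈ Submodule.span F {v, ρ x v} := Submodule.subset_span (Or.inl rfl)
  have h2 : ρ x v ∈ Submodule.span F {v, ρ x v} := Submodule.subset_span (Or.inr rfl)
  have hB2 : B (ρ x v) (ρ x v) = B v v := E.iso x _ _
  have hB1 : 2 * B v (ρ x v) = -B v v := by
    have e1 : B v (ρ x v) = B (ρ x v) (ρ x (ρ x v)) := (E.iso x _ _).symm
    have e2 : ρ x (ρ x v) = -(v + ρ x v) := by
      rw [eq_neg_iff_add_eq_zero, ← T.rel]; abel
    rw [e2, map_neg, map_add, hB2, E.symm (ρ x v) v] at e1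
    linear_combination e1
  -- the basis `v, v + 2 x v` of `[V,x]`
  let t : Fin 2 → V := ![v, v + (2 : F) • ρ x v]
  have ht : ∀ a, t a ∈ Submodule.span F {v, ρ x v} := by
    intro a
    fin_cases a
    · exact h1
    · exact Submodule.add_mem _ h1 (Submodule.smul_mem _ _ h2)
  have ht1 : B v (v + (2 : F) • ρ x v) = 0 := by
    rw [map_add, map_smul, smul_eq_mul, hB1, add_neg_cancel]
  have htt : ∀ a b, a ≠ b → B (t a) (t b) = 0 := by
    intro a b hab
    fin_cases a <;> fin_cases b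
    · exact absurd rfl hab
    · exact ht1
    · show B (v + (2 : F) • ρ x v) v = 0
      rw [E.symm]; exact ht1
    · exact absurd rfl hab
  have htn : ∀ a, B (t a) (t a) ≠ 0 := by
    intro a
    fin_cases a
    · exact T.nz
    · show B (v + (2 : F) • ρ x v) (v + (2 : F) • ρ x v) ≠ 0
      have : B (v + (2 : F) • ρ x v) (v + (2 : F) • ρ x v) = 3 * B v v := by
        rw [map_add, map_add, map_smul, map_smul, LinearMap.add_apply, LinearMap.smul_apply, LinearMap.add_apply,
          LinearMap.smul_apply, smul_eq_mul, smul_eq_mul, smul_eq_mul, hB2, E.symm (ρ x v) v]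
        linear_combination 2 * hB1
      rw [this]
      exact mul_ne_zero E.three T.nz
  have ho1 : ∀ a b, B (t a) (ρ w (t b)) = 0 := fun a b => ho _ (ht a) _ (ht b)
  have ho2 : ∀ a b, B (t a) (ρ w (ρ w (t b))) = 0 := by
    intro a b
    rw [← E.iso w, ← mul_ap, ← mul_ap, ← pow_two, ← pow_succ, hw, one_ap, E.symm]
    exact ho1 b a
  have hpos : ∀ i : Fin 3, ∀ a b, i ≠ 0 → B (t a) (ρ (w ^ (i : ℕ)) (t b)) = 0 := by
    intro i a b hi
    fin_cases i
    · exact absurd rfl hi
    · show B (t a) (ρ (w ^ 1) (t b)) = 0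
      rw [pow_one]; exact ho1 a b
    · show B (t a) (ρ (w ^ 2) (t b)) = 0
      rw [pow_two, mul_ap]; exact ho2 a b
  let f : Fin 3 × Fin 2 → W := fun j => ⟨ρ (w ^ (j.1 : ℕ)) (t j.2), by
    have h3 : ∀ n : ℕ, ρ (w ^ n) (t j.2) ∈ W := by
      intro n
      induction n with
      | zero => rw [pow_zero, one_ap]; exact hv _ (ht _)
      | succ n ih => rw [pow_succ', mul_ap]; exact hwW _ ih
    exact h3 _⟩
  have hlt : ∀ i j : Fin 3, ∀ a b, i < j → B (ρ (w ^ (i : ℕ)) (t a)) (ρ (w ^ (j : ℕ)) (t b)) = 0 := by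
    intro i j a b hij
    have e1 : (w ^ (j : ℕ)) = w ^ (i : ℕ) * w ^ ((j : ℕ) - i) := by
      rw [← pow_add]; congr 1; have : (i : ℕ) < j := hij; omega
    rw [e1, mul_ap, E.iso]
    have hij' : (i : ℕ) < j := hij
    have e2 := hpos ⟨(j : ℕ) - i, by omega⟩ a b (by
      intro h
      have := congrArg Fin.val h
      simp only [Fin.val_zero] at this
      omega)
    exact e2
  have hli : LinearIndependent F fun j => (f j : V) := by
    refine indep_of_orth (B := B) ?_ ?_
    · rintro ⟨i, a⟩ ⟨j, b⟩ hij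
      show B (ρ (w ^ (i : ℕ)) (t a)) (ρ (w ^ (j : ℕ)) (t b)) = 0
      rcases lt_trichotomy i j with h | h | h
      · exact hlt i j a b h
      · subst h
        rw [E.iso]
        exact htt a b fun h => hij (by rw [h])
      · rw [E.symm]
        exact hlt j i b a h
    · rintro ⟨i, a⟩
      show B (ρ (w ^ (i : ℕ)) (t a)) (ρ (w ^ (i : ℕ)) (t a)) ≠ 0
      rw [E.iso]
      exact htn a
  have hli' : LinearIndependent F f := LinearIndependent.of_comp W.subtype hli
  have h3 := hli'.fintype_card_le_finrank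
  have h4 : Fintype.card (Fin 3 × Fin 2) = 6 := rfl
  rwa [h4] at h3

/-- **the decomposition** -/
theorem Sys.dec [Finite G] [Finite V] (E : Env B ρ) (S : Sys B ρ H O) {x w : G} {v : V} (T : Thr B ρ x v) (hx : x ∈ H)
    (hw3 : w ^ 3 = 1) (hw : w ∈ H)
    (ho : ∀ s ∈ Submodule.span F {v, ρ x v}, ∀ s' ∈ Submodule.span F {v, ρ x v}, B s (ρ w s') = 0)
    (h27 : 27 ∣ Nat.card H) :
    ∃ U : Fin 4 → Submodule F V, (∀ i j, i ≠ j → ∀ u ∈ U i, ∀ v ∈ U j, B u v = 0) ∧ (∀ i, finrank F (U i) = 2) ∧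
      ⨆ i, U i = ⊤ ∧ (∀ i, ∃ y : G, y ^ 3 = 1 ∧ y ≠ 1 ∧ LinearMap.range (ρ y - 1) = U i) ∧
      ∀ h ∈ H, ∀ i, ∃ j, (U i).map (ρ h) = U j := by
  classical
  have : FiniteDimensional F V := FiniteDimensional.of_finrank_pos (by rw [E.dim]; norm_num)
  obtain ⟨W₀, hW₀⟩ := S.ne
  have hc := S.card_mul E hW₀
  have hall : ∀ W ∈ O, finrank F W = finrank F W₀ := fun W hW => S.finrank_eq hW hW₀
  have hd : finrank F W₀ ∣ 8 := ⟨_, by rw [mul_comm]; exact hc.symm⟩
  have hle : finrank F W₀ ≤ 8 := Nat.le_of_dvd (by norm_num) hd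
  have hne8 : finrank F W₀ ≠ 8 := fun h => S.ntop W₀ hW₀ (Submodule.eq_top_of_finrank_eq (by rw [h, E.dim]))
  have hne1 : finrank F W₀ ≠ 1 := fun h => by
    rw [h, mul_one] at hc
    exact S.one E (fun W hW => (hall W hW).trans h) hc h27
  have h24 : finrank F W₀ = 2 ∨ finrank F W₀ = 4 := by
    interval_cases (finrank F W₀) <;> simp_all
  have hfix : ∀ W ∈ O, W.map (ρ x) = W := fun W hW => S.fix E T hx hW (by
    rw [hall W hW]; omega)
  obtain ⟨W₁, hW₁, hr, hr2⟩ := S.le E T hfix
  have hne4 : finrank F W₀ ≠ 4 := by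
    intro h4
    have hspan : ∀ s ∈ Submodule.span F {v, ρ x v}, s ∈ W₁ := by
      have h1 : v ∈ LinearMap.range (ρ x - 1) := by
        refine ⟨(3 : F)⁻¹ • (-(ρ x v + (2 : F) • v)), ?_⟩
        rw [map_smul]
        show (3 : F)⁻¹ • (ρ x (-(ρ x v + (2 : F) • v)) - -(ρ x v + (2 : F) • v)) = v
        rw [ T.mem, smul_smul, inv_mul_cancel₀ E.three, one_smul]
      have h2 : ρ x v ∈ LinearMap.range (ρ x - 1) := by
        have : ρ x v = v + (ρ x v - v) := by abel
        rw [this]
        exact Submodule.add_mem _ h1 ⟨v, rfl⟩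
      have h3 : Submodule.span F {v, ρ x v} ≤ W₁ := by
        rw [Submodule.span_le]
        rintro s (rfl | rfl)
        · exact hr h1
        · exact hr h2
      exact h3
    have hwfix : W₁.map (ρ w) = W₁ := by
      by_contra hne
      obtain ⟨h5, h6⟩ := Sys.three hw3 hne
      have hc2 : Nat.card O = 2 := by rw [h4] at hc; omega
      have hfO : Finite O := Nat.finite_of_card_ne_zero (by rw [hc2]; norm_num)
      have := Fintype.ofFinite O
      rw [Nat.card_eq_fintype_card] at hc2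
      have h7 : ({⟨W₁, hW₁⟩, ⟨W₁.map (ρ w), S.inv _ hW₁ _ hw⟩, ⟨W₁.map (ρ (w ^ 2)), S.inv _ hW₁ _ (H.pow_mem hw 2)⟩} :
          Finset O).card = 3 := by
        rw [Finset.card_insert_of_notMem, Finset.card_pair]
        · intro h; exact h6 (congrArg Subtype.val h)
        · intro h
          rcases Finset.mem_insert.1 h with h | h
          · exact hne (congrArg Subtype.val h).symm
          · exact h5 (congrArg Subtype.val (Finset.mem_singleton.1 h))
      have h8 := Finset.card_le_univ ({⟨W₁, hW₁⟩, ⟨W₁.map (ρ w), S.inv _ hW₁ _ hw⟩,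
        ⟨W₁.map (ρ (w ^ 2)), S.inv _ hW₁ _ (H.pow_mem hw 2)⟩} : Finset O)
      rw [h7, hc2] at h8
      omega
    have h5 := six E T hw3 ho hspan (fun s hs => by
      have : ρ w s ∈ W₁.map (ρ w) := ⟨s, hs, rfl⟩
      rwa [hwfix] at this)
    rw [hall W₁ hW₁] at h5
    omega
  have h2 : finrank F W₀ = 2 := h24.resolve_right hne4
  have hc4 : Nat.card O = 4 := by rw [h2] at hc; omega
  have hfO : Finite O := Nat.finite_of_card_ne_zero (by rw [hc4]; norm_num)
  obtain ⟨ε⟩ : Nonempty (Fin 4 ≃ O) := by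
    refine ⟨?_⟩
    have := Finite.equivFin O
    rw [hc4] at this
    exact this.symm
  have hW₁r : LinearMap.range (ρ x - 1) = W₁ :=
    Submodule.eq_of_le_of_finrank_le hr (by rw [hall W₁ hW₁, h2]; exact hr2)
  refine ⟨fun i => ε i, ?_, ?_, ?_, ?_, ?_⟩
  · intro i j hij
    exact S.orth _ (ε i).2 _ (ε j).2 fun h => hij (ε.injective (Subtype.ext h))
  · intro i
    exact (hall _ (ε i).2).trans h2
  · apply S.top
    intro W hW
    have h3 := le_iSup (fun i => (ε i : Submodule F V)) (ε.symm ⟨W, hW⟩)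
    rwa [Equiv.apply_symm_apply] at h3
  · intro i
    obtain ⟨h, hh, hhW⟩ := S.trans W₁ hW₁ _ (ε i).2
    refine ⟨h * x * h⁻¹, ?_, ?_, ?_⟩
    · rw [conj_pow, T.x3, mul_one, mul_inv_cancel]
    · intro h1
      have h3 : x = 1 := by
        have : x = h⁻¹ * (h * x * h⁻¹) * h := by group
        rw [this, h1]; group
      have h4 := T.rel
      rw [h3, one_ap, one_ap] at h4
      have h5 : (3 : F) • v = 0 := by
        have : (3 : F) = 1 + 1 + 1 := by norm_num
        rw [this, add_smul, add_smul, one_smul]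
        exact h4
      exact T.ne_zero ((smul_eq_zero.1 h5).resolve_left E.three)
    · show _ = (ε i : Submodule F V)
      rw [← hhW, ← hW₁r]
      ext u
      constructor
      · rintro ⟨y, rfl⟩
        refine ⟨ρ x (ρ h⁻¹ y) - ρ h⁻¹ y, ⟨ρ h⁻¹ y, rfl⟩, ?_⟩
        show ρ h _ = ρ (h * x * h⁻¹) y - y
        rw [map_sub, ap_inv, mul_ap, mul_ap]
      · rintro ⟨_, ⟨y, rfl⟩, rfl⟩
        refine ⟨ρ h y, ?_⟩
        show ρ (h * x * h⁻¹) (ρ h y) - ρ h y = ρ h (ρ x y - y)
        rw [map_sub, mul_ap, mul_ap, inv_ap]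
  · intro h hh i
    refine ⟨ε.symm ⟨_, S.inv _ (ε i).2 h hh⟩, ?_⟩
    show _ = (ε (ε.symm _) : Submodule F V)
    rw [Equiv.apply_symm_apply]

end Cfsg.Agent.H358.D4
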