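import Cfsg.Agent.H167.OP.Alpha

/-!
# S4311, BOX A: class-2 groups and elements of order three and rank two (helper358)

`Env B ρ`: `ρ` is a faithful representation of `G` on the 8-dimensional space `V` by isometries of the symmetric nondegenerate
form `B`, the centre of `G` is `±1`.  `Thr B ρ x v`: `x` has order three, `[V,x] = <v, xv>`, `B v v ≠ 0`.
`class2`: a 2-group `M` normalised by `x`, with `M' ≤ Z`, `M² ≤ Z`, whose centre is contained in `Z`, is contained in `Z`.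
-/

set_option autoImplicit false

namespace Cfsg.Agent.H358.D4

open Module Cfsg.Agent.H167.OP

variable {F : Type*} [Field F] {V : Type*} [AddCommGroup V] [Module F V] {G : Type*} [Group G]

/-- the set up -/
structure Env (B : V →ₗ[F] V →ₗ[F] F) (ρ : Representation F G V) : Prop where
  two : (2 : F) ≠ 0
  three : (3 : F) ≠ 0
  symm : ∀ u v, B u v = B v u
  nd : ∀ u, (∀ v, B u v = 0) → u = 0
  iso : ∀ g u v, B (ρ g u) (ρ g v) = B u v
  inj : Function.Injective ρ
  cen : ∀ g, g ∈ Subgroup.center G ↔ ρ g = 1 ∨ ρ g = -1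
  dim : finrank F V = 8

/-- elements of order three and rank two -/
structure Thr (B : V →ₗ[F] V →ₗ[F] F) (ρ : Representation F G V) (x : G) (v : V) : Prop where
  x3 : x ^ 3 = 1
  nz : B v v ≠ 0
  rel : v + ρ x v + ρ x (ρ x v) = 0
  rng : ∀ u, ρ x u - u ∈ Submodule.span F {v, ρ x v}

variable {B : V →ₗ[F] V →ₗ[F] F} {ρ : Representation F G V}

theorem Env.eq_neg (E : Env B ρ) {u : V} (h : u = -u) : u = 0 := by
  have h5 : (2 : F) • u = 0 := by
    rw [two_smul]
    nth_rewrite 2 [h]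
    exact add_neg_cancel u
  exact (smul_eq_zero.1 h5).resolve_left E.two

/-- elements whose commutator is in the centre commute or anticommute -/
theorem Env.anti (E : Env B ρ) {b c : G} (h : c * b * c⁻¹ * b⁻¹ ∈ Subgroup.center G) (hne : c * b ≠ b * c) (u : V) :
    ρ c (ρ b u) = -ρ b (ρ c u) := by
  have h1 : c * b = (c * b * c⁻¹ * b⁻¹) * (b * c) := by group
  rcases (E.cen _).1 h with h2 | h2
  · exact absurd (by rw [h1, E.inj (h2.trans (map_one ρ).symm), one_mul]) hne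
  · rw [← mul_ap, h1, mul_ap, h2, mul_ap]
    rfl

theorem mem_ker_sub {x : G} {u : V} : u ∈ LinearMap.ker (ρ x - 1) ↔ ρ x u = u := by
  rw [LinearMap.mem_ker, LinearMap.sub_apply, Module.End.one_apply, sub_eq_zero]

theorem coprime_pow {b : G} {k : ℕ} (h4 : b ^ 3 = 1) (hk' : b ^ 2 ^ k = 1) : b = 1 := by
  have h5 : orderOf b ∣ 3 := orderOf_dvd_of_pow_eq_one h4
  have h6 : orderOf b ∣ 2 ^ k := orderOf_dvd_of_pow_eq_one hk'
  have h7 : orderOf b = 1 := Nat.eq_one_of_dvd_coprimes (Nat.Coprime.pow_right k (by norm_num : Nat.Coprime 3 2)) h5 h6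
  rwa [orderOf_eq_one_iff] at h7

/-- coprime action -/
theorem comm_of_comm {x a b : G} {k : ℕ} (hx : x ^ 3 = 1) (hb : b = x * a * x⁻¹ * a⁻¹) (hk : b ^ 2 ^ k = 1)
    (h1 : x * b = b * x) : x * a = a * x := by
  have h2 : MulAut.conj x a = b * a := by rw [hb, MulAut.conj_apply]; group
  have h3 : MulAut.conj x b = b := by rw [MulAut.conj_apply, h1]; group
  have h5 : (MulAut.conj x ^ 3) a = b ^ 3 * a := by
    rw [pow_succ, pow_two, MulAut.mul_apply, MulAut.mul_apply, h2, map_mul, map_mul, h3, h2, map_mul, h3, h2, pow_succ,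
      pow_two]
    simp only [mul_assoc]
  rw [← map_pow, hx, map_one, MulAut.one_apply] at h5
  have h6 := coprime_pow (mul_eq_right.1 h5.symm) hk
  rw [h6, one_mul, MulAut.conj_apply, mul_inv_eq_iff_eq_mul] at h2
  exact h2

theorem Thr.conj (E : Env B ρ) {x : G} {v : V} (T : Thr B ρ x v) (c : G) : Thr B ρ (c * x * c⁻¹) (ρ c v) := by
  have h1 : ∀ u, ρ (c * x * c⁻¹) (ρ c u) = ρ c (ρ x u) := fun u => by
    rw [mul_ap, mul_ap, inv_ap]
  refine ⟨?_, ?_, ?_, fun u => ?_⟩
  · rw [conj_pow, T.x3, mul_one, mul_inv_cancel]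
  · rw [E.iso]; exact T.nz
  · rw [h1, h1, ← map_add, ← map_add, T.rel, map_zero]
  · obtain ⟨α, β, h2⟩ := Submodule.mem_span_pair.1 (T.rng (ρ c⁻¹ u))
    refine Submodule.mem_span_pair.2 ⟨α, β, ?_⟩
    rw [h1, ← map_smul, ← map_smul, ← map_add, h2, map_sub, ap_inv, ← h1, ap_inv]

theorem Thr.ne_zero {x : G} {v : V} (T : Thr B ρ x v) : v ≠ 0 := by
  intro h
  exact T.nz (by rw [h, map_zero])

theorem Thr.finrank_range [FiniteDimensional F V] {x : G} {v : V} (T : Thr B ρ x v) : rk ρ x ≤ 2 := by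
  classical
  have h1 : LinearMap.range (ρ x - 1) ≤ Submodule.span F {v, ρ x v} := by
    rintro _ ⟨u, rfl⟩
    exact T.rng u
  refine (Submodule.finrank_mono h1).trans ?_
  have h2 := finrank_span_finset_le_card (R := F) (M := V) {v, ρ x v}
  rw [Finset.coe_insert, Finset.coe_singleton] at h2
  exact h2.trans (Finset.card_le_two)

theorem Thr.six_le [FiniteDimensional F V] (E : Env B ρ) {x : G} {v : V} (T : Thr B ρ x v) :
    6 ≤ finrank F (LinearMap.ker (ρ x - 1)) := by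
  have h1 := LinearMap.finrank_range_add_finrank_ker (ρ x - 1)
  have h2 := T.finrank_range
  rw [rk] at h2
  rw [E.dim] at h1
  omega

/-- `v` is in the range -/
theorem Thr.mem {x : G} {v : V} (T : Thr B ρ x v) : ρ x (-(ρ x v + (2 : F) • v)) - -(ρ x v + (2 : F) • v) =
    (3 : F) • v := by
  have h1 := T.rel
  have h2 : ρ x (ρ x v) = -(v + ρ x v) := by
    rw [eq_neg_iff_add_eq_zero, ← h1]; abel
  have h3 : (3 : F) • v = v + v + v := by
    have : (3 : F) = 1 + 1 + 1 := by norm_num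
    rw [this, add_smul, add_smul, one_smul]
  rw [map_neg, map_add, map_smul, h2, h3, two_smul, two_smul]
  abel

/-- elements commuting with `x` preserve `[V,x]` -/
theorem Thr.comm_mem (E : Env B ρ) {x : G} {v : V} (T : Thr B ρ x v) {n : G} (h : x * n = n * x) :
    ∃ α β : F, α • v + β • ρ x v = ρ n v := by
  rw [← Submodule.mem_span_pair]
  have h1 : ρ n v = (3 : F)⁻¹ • (ρ x (ρ n (-(ρ x v + (2 : F) • v))) - ρ n (-(ρ x v + (2 : F) • v))) := by
    rw [← mul_ap, h, mul_ap, ← map_sub, T.mem, map_smul, smul_smul, inv_mul_cancel₀ E.three, one_smul]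
  rw [h1]
  exact Submodule.smul_mem _ _ (T.rng _)

/-- anticommuting elements do not commute with `x` -/
theorem Thr.not_anti (E : Env B ρ) {x : G} {v : V} (T : Thr B ρ x v) {b c : G} (hb : x * b = b * x) (hc : x * c = c * x)
    (h : ∀ u, ρ c (ρ b u) = -ρ b (ρ c u)) : False := by
  obtain ⟨α, β, h1⟩ := T.comm_mem E hb
  obtain ⟨γ, δ, h2⟩ := T.comm_mem E hc
  have h3 : ρ c (ρ b v) = ρ b (ρ c v) := by
    rw [← h1, ← h2, map_add, map_add, map_smul, map_smul, map_smul, map_smul, ← mul_ap, ← mul_ap, ← hb, ← hc, mul_ap,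
      mul_ap, ← h1, ← h2, map_add, map_add, map_smul, map_smul, map_smul, map_smul]
    simp only [smul_add, smul_smul]
    rw [mul_comm γ α, mul_comm γ β, mul_comm δ α, mul_comm δ β]
    abel
  have h4 : ρ c (ρ b v) = 0 := E.eq_neg (by nth_rewrite 2 [h3]; exact h v)
  have h5 : ρ b v = 0 := by rw [← inv_ap ρ c (ρ b v), h4, map_zero]
  have h6 : v = 0 := by rw [← inv_ap ρ b v, h5, map_zero]
  exact T.ne_zero h6

/-- **the class-2 lemma** -/
theorem class2 [FiniteDimensional F V] (E : Env B ρ) {x : G} {v : V} (T : Thr B ρ x v) {M : Subgroup G} (hM : IsPGroup 2 M)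
    (hxM : ∀ n ∈ M, x * n * x⁻¹ ∈ M) (hsq : ∀ n ∈ M, n * n ∈ Subgroup.center G)
    (hcom : ∀ n ∈ M, ∀ m ∈ M, n * m * n⁻¹ * m⁻¹ ∈ Subgroup.center G)
    (hI : ∀ b ∈ M, b ∉ Subgroup.center G → ∃ c ∈ M, c * b ≠ b * c) {b₀ : G} (hb₀ : b₀ ∈ M)
    (hb₀' : b₀ ∉ Subgroup.center G) : False := by
  by_cases hx : ∀ n ∈ M, x * n = n * x
  · obtain ⟨c, hc, hcb⟩ := hI _ hb₀ hb₀'
    exact T.not_anti E (hx _ hb₀) (hx _ hc) (E.anti (hcom c hc b₀ hb₀) hcb)
  obtain ⟨a, ha, hab⟩ : ∃ a ∈ M, x * (x * a * x⁻¹ * a⁻¹) ≠ (x * a * x⁻¹ * a⁻¹) * x := by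
    by_contra hcon
    push Not at hcon
    apply hx
    intro a ha
    have h1 := hcon a ha
    obtain ⟨k, hk⟩ := hM ⟨x * a * x⁻¹ * a⁻¹, M.mul_mem (hxM a ha) (M.inv_mem ha)⟩
    exact comm_of_comm T.x3 rfl (congrArg Subtype.val hk) h1
  obtain ⟨b, hb⟩ : ∃ b, b = x * a * x⁻¹ * a⁻¹ := ⟨_, rfl⟩
  rw [← hb] at hab
  have hbM : b ∈ M := hb ▸ M.mul_mem (hxM a ha) (M.inv_mem ha)
  have hbZ : b ∉ Subgroup.center G := fun h => hab (Subgroup.mem_center_iff.1 h x)
  have T' := T.conj E a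
  -- the fixed space
  let K : Submodule F V := LinearMap.ker (ρ x - 1) ⊓ LinearMap.ker (ρ (a * x * a⁻¹) - 1)
  have hK4 : 4 ≤ finrank F K := by
    have h1 := Submodule.finrank_sup_add_finrank_inf_eq (LinearMap.ker (ρ x - 1)) (LinearMap.ker (ρ (a * x * a⁻¹) - 1))
    have h2 := (LinearMap.ker (ρ x - 1) ⊔ LinearMap.ker (ρ (a * x * a⁻¹) - 1)).finrank_le
    have h3 := T.six_le E
    have h4 := T'.six_le E
    rw [E.dim] at h2
    show 4 ≤ finrank F (LinearMap.ker (ρ x - 1) ⊓ LinearMap.ker (ρ (a * x * a⁻¹) - 1) : Submodule F V)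
    omega
  have hKb : ∀ u ∈ K, ρ b u = u := by
    rintro u ⟨h1, h2⟩
    rw [SetLike.mem_coe, mem_ker_sub] at h1 h2
    have h3 : b = x * (a * x * a⁻¹)⁻¹ := by rw [hb]; group
    have h4 : ρ (a * x * a⁻¹)⁻¹ u = u := by nth_rewrite 1 [← h2]; rw [inv_ap]
    rw [h3, mul_ap, h4, h1]
  have hb2 : ρ (b * b) = 1 := by
    rcases (E.cen _).1 (hsq b hbM) with h | h
    · exact h
    · exfalso
      have hne : K ≠ ⊥ := by
        intro h0
        rw [h0, finrank_bot] at hK4
        omega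
      obtain ⟨u, hu, hu0⟩ := Submodule.exists_mem_ne_zero_of_ne_bot hne
      apply hu0
      apply E.eq_neg
      have h1 := congrArg (fun f : V →ₗ[F] V => f u) h
      simp only [mul_ap, hKb u hu] at h1
      exact h1
  have hbb : ∀ u, ρ b (ρ b u) = u := fun u => by rw [← mul_ap, hb2]; rfl
  obtain ⟨c, hc, hcb⟩ := hI b hbM hbZ
  have hanti := E.anti (hcom c hc b hbM) hcb
  -- dimensions
  let P : Submodule F V := LinearMap.ker (ρ b - 1)
  let P' : Submodule F V := LinearMap.ker (ρ b + 1)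
  have memP' : ∀ u, u ∈ P' ↔ ρ b u = -u := by
    intro u
    show u ∈ LinearMap.ker (ρ b + 1) ↔ _
    rw [LinearMap.mem_ker, LinearMap.add_apply, Module.End.one_apply, add_eq_zero_iff_eq_neg]
  have hcinj : Function.Injective (ρ c) := fun u w h => by rw [← inv_ap ρ c u, h, inv_ap]
  have h1 : finrank F P ≤ finrank F P' := by
    have h2 : P.map (ρ c) ≤ P' := by
      rintro _ ⟨u, hu, rfl⟩
      have hu' : ρ b u = u := mem_ker_sub.1 hu
      rw [memP', ← neg_eq_iff_eq_neg, ← hanti, hu']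
    rw [LinearEquiv.finrank_eq (Submodule.equivMapOfInjective (ρ c) hcinj P)]
    exact Submodule.finrank_mono h2
  have h2 : finrank F P ≤ 4 := by
    have h3 := Submodule.finrank_sup_add_finrank_inf_eq P P'
    have h4 := (P ⊔ P').finrank_le
    have h5 : P ⊓ P' = ⊥ := by
      rw [eq_bot_iff]
      rintro u ⟨hu, hu'⟩
      have e1 : ρ b u = u := mem_ker_sub.1 hu
      have e2 := (memP' u).1 hu'
      exact E.eq_neg (e1.symm.trans e2)
    rw [h5, finrank_bot] at h3
    rw [E.dim] at h4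
    omega
  have hKP : K = P := Submodule.eq_of_le_of_finrank_le (fun u hu => mem_ker_sub.2 (hKb u hu)) (h2.trans hK4)
  have hPx : ∀ u, ρ b u = u → ρ x u = u := by
    intro u hu
    have h3 : u ∈ P := mem_ker_sub.2 hu
    rw [← hKP] at h3
    exact mem_ker_sub.1 h3.1
  apply hab
  apply E.inj
  apply LinearMap.ext
  intro u
  rw [mul_ap, mul_ap]
  have e1 : ∀ w, ρ b (w + ρ b w) = w + ρ b w := fun w => by rw [map_add, hbb, add_comm]
  have e2 := hPx _ (e1 u)
  have e3 : ρ x u + ρ b (ρ x u) = u + ρ b u := by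
    rw [← sub_eq_zero]
    apply E.nd
    intro k
    have key : ∀ y k, ρ b y = y → B y k = (2 : F)⁻¹ * B y (k + ρ b k) := by
      intro y k hy
      have h3 : B y (ρ b k) = B y k := by
        nth_rewrite 1 [← hy]
        exact E.iso _ _ _
      rw [map_add, h3, ← two_mul, ← mul_assoc, inv_mul_cancel₀ E.two, one_mul]
    have key2 : ∀ w k, ρ b k = k → B (w + ρ b w) k = 2 * B w k := by
      intro w k hk
      have h3 : B (ρ b w) k = B w k := by
        nth_rewrite 1 [← hk]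
        exact E.iso _ _ _
      rw [map_add, LinearMap.add_apply, h3, two_mul]
    rw [key _ k (by rw [map_sub, e1, e1]), map_sub, LinearMap.sub_apply, key2 _ _ (e1 k), key2 _ _ (e1 k)]
    have h3 : B (ρ x u) (k + ρ b k) = B u (k + ρ b k) := by
      nth_rewrite 1 [← hPx _ (e1 k)]
      exact E.iso _ _ _
    rw [h3, sub_self, mul_zero]
  rw [map_add] at e2
  have e4 : ρ x (ρ b u) = u + ρ b u - ρ x u := eq_sub_of_add_eq' e2
  rw [e4, ← e3]
  abel

end Cfsg.Agent.H358.D4
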