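import Mathlib.GroupTheory.PGroup
import Mathlib.GroupTheory.Sylow

/-!
# S4311, BOX A: group theory (helper358)

`exists_elem`: the noncentral elementary abelian normal 2-subgroup.
-/

set_option autoImplicit false

namespace Cfsg.Agent.H358.D4

open Subgroup

variable {G : Type*} [Group G]

theorem le_norm {P N : Subgroup G} (h : ∀ g ∈ P, ∀ n ∈ N, g * n * g⁻¹ ∈ N) : P ≤ normalizer (N : Set G) := by
  intro g hg
  rw [mem_normalizer_iff]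
  intro n
  refine ⟨fun hn => h g hg n hn, fun hn => ?_⟩
  have h1 := h g⁻¹ (P.inv_mem hg) _ hn
  have h2 : g⁻¹ * (g * n * g⁻¹) * g⁻¹⁻¹ = n := by group
  rw [h2] at h1
  exact h1

/-- a 2-group acting on a nontrivial 2-group modulo `Z` has a nontrivial fixed point -/
theorem exists_fix [Finite G] {P N Z : Subgroup G} [Z.Normal] (hP : IsPGroup 2 P) (hNP : N ≤ P)
    (hn : ∀ g ∈ P, ∀ n ∈ N, g * n * g⁻¹ ∈ N) (hNZ : ∃ n ∈ N, n ∉ Z) :
    ∃ n ∈ N, n ∉ Z ∧ ∀ g ∈ P, g * n * g⁻¹ * n⁻¹ ∈ Z := by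
  have : Fact (Nat.Prime 2) := ⟨Nat.prime_two⟩
  let π := QuotientGroup.mk' Z
  let act : MulAction P (N.map π) :=
    { smul := fun g m => ⟨π g * m * (π g)⁻¹, by
        obtain ⟨n, hnN, hnm⟩ := m.2
        refine ⟨g * n * (g : G)⁻¹, hn g g.2 n hnN, ?_⟩
        rw [map_mul, map_mul, map_inv, hnm]⟩
      one_smul := fun m => Subtype.ext (by
        show π (1 : G) * m * (π (1 : G))⁻¹ = m
        rw [map_one, one_mul, inv_one, mul_one])
      mul_smul := fun g h m => Subtype.ext (by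
        show π ((g : G) * h) * m * (π ((g : G) * h))⁻¹ = π g * (π h * m * (π h)⁻¹) * (π g)⁻¹
        rw [map_mul, mul_inv_rev]
        simp only [mul_assoc]) }
  have h2 : 2 ∣ Nat.card (N.map π) := by
    have h3 : IsPGroup 2 (N.map π) := (hP.to_le hNP).map π
    rcases h3.card_eq_or_dvd with h | h
    · exfalso
      obtain ⟨n, hnN, hnZ⟩ := hNZ
      apply hnZ
      rw [Subgroup.card_eq_one] at h
      have h4 : π n ∈ N.map π := ⟨n, hnN, rfl⟩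
      rw [h, mem_bot] at h4
      exact (QuotientGroup.eq_one_iff n).1 h4
    · exact h
  have h1 : (1 : N.map π) ∈ MulAction.fixedPoints P (N.map π) := by
    intro g
    apply Subtype.ext
    show π g * 1 * (π g)⁻¹ = 1
    rw [mul_one, mul_inv_cancel]
  obtain ⟨b, hb, hb1⟩ := hP.exists_fixed_point_of_prime_dvd_card_of_fixed_point (N.map π) h2 h1
  obtain ⟨n, hnN, hnb⟩ := b.2
  refine ⟨n, hnN, fun hnZ => hb1 ?_, fun g hg => ?_⟩
  · apply Subtype.ext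
    rw [← hnb]
    exact ((QuotientGroup.eq_one_iff n).2 hnZ).symm
  · have h3 : π g * b * (π g)⁻¹ = b := congrArg Subtype.val (hb ⟨g, hg⟩)
    rw [← hnb] at h3
    refine (QuotientGroup.eq_one_iff _).1 ?_
    show π (g * n * g⁻¹ * n⁻¹) = 1
    rw [map_mul, map_mul, map_mul, map_inv, map_inv, h3, mul_inv_cancel]

/-- the class-2 subgroup of exponent 2 modulo `Z` -/
def Om2 (N Z : Subgroup G) [Z.Normal] : Subgroup G where
  carrier := {m | m ∈ N ∧ (QuotientGroup.mk m * QuotientGroup.mk m : G ⧸ Z) = 1 ∧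
    ∀ k ∈ N, (QuotientGroup.mk k * QuotientGroup.mk m : G ⧸ Z) = QuotientGroup.mk m * QuotientGroup.mk k}
  one_mem' := ⟨N.one_mem, by rw [QuotientGroup.mk_one, one_mul], fun k _ => by
    rw [QuotientGroup.mk_one, one_mul, mul_one]⟩
  mul_mem' := by
    rintro a b ⟨ha, ha2, hac⟩ ⟨hb, hb2, hbc⟩
    refine ⟨N.mul_mem ha hb, ?_, fun k hk => ?_⟩
    · rw [QuotientGroup.mk_mul]
      calc (QuotientGroup.mk a * QuotientGroup.mk b * (QuotientGroup.mk a * QuotientGroup.mk b) : G ⧸ Z)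
          = QuotientGroup.mk a * (QuotientGroup.mk b * QuotientGroup.mk a) * QuotientGroup.mk b := by
            simp only [mul_assoc]
        _ = (QuotientGroup.mk a * QuotientGroup.mk a) * (QuotientGroup.mk b * QuotientGroup.mk b) := by
            rw [hac b hb]; simp only [mul_assoc]
        _ = 1 := by rw [ha2, hb2, one_mul]
    · rw [QuotientGroup.mk_mul, ← mul_assoc, hac k hk, mul_assoc, hbc k hk, mul_assoc]
  inv_mem' := by
    rintro a ⟨ha, ha2, hac⟩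
    refine ⟨N.inv_mem ha, ?_, fun k hk => ?_⟩
    · rw [QuotientGroup.mk_inv, ← mul_inv_rev, ha2, inv_one]
    · rw [QuotientGroup.mk_inv]
      have h1 := hac k hk
      rw [eq_inv_mul_iff_mul_eq, ← mul_assoc, ← h1, mul_assoc, mul_inv_cancel, mul_one]

theorem mem_Om2 {N Z : Subgroup G} [Z.Normal] {m : G} : m ∈ Om2 N Z ↔ m ∈ N ∧
    (QuotientGroup.mk m * QuotientGroup.mk m : G ⧸ Z) = 1 ∧
    ∀ k ∈ N, (QuotientGroup.mk k * QuotientGroup.mk m : G ⧸ Z) = QuotientGroup.mk m * QuotientGroup.mk k := Iff.rfl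

theorem Om2_conj {N Z H : Subgroup G} [Z.Normal] (hH : ∀ h ∈ H, ∀ n ∈ N, h * n * h⁻¹ ∈ N) :
    ∀ h ∈ H, ∀ n ∈ Om2 N Z, h * n * h⁻¹ ∈ Om2 N Z := by
  rintro h hh n ⟨hn, hn2, hnc⟩
  refine ⟨hH h hh n hn, ?_, fun k hk => ?_⟩
  · rw [← QuotientGroup.mk_mul]
    have h1 : h * n * h⁻¹ * (h * n * h⁻¹) = h * (n * n) * h⁻¹ := by group
    rw [h1, QuotientGroup.mk_mul, QuotientGroup.mk_mul, QuotientGroup.mk_mul, hn2, mul_one, QuotientGroup.mk_inv,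
      mul_inv_cancel]
  · have h1 : h⁻¹ * k * h ∈ N := by
      have := hH h⁻¹ (H.inv_mem hh) k hk
      rwa [inv_inv] at this
    have h2 := hnc _ h1
    rw [← QuotientGroup.mk_mul, ← QuotientGroup.mk_mul] at h2 ⊢
    have h3 : k * (h * n * h⁻¹) = h * (h⁻¹ * k * h * n) * h⁻¹ := by group
    have h4 : h * n * h⁻¹ * k = h * (n * (h⁻¹ * k * h)) * h⁻¹ := by group
    rw [h3, h4, QuotientGroup.mk_mul, QuotientGroup.mk_mul, h2, ← QuotientGroup.mk_mul, ← QuotientGroup.mk_mul]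

theorem exists_elem [Finite G] {Z H N P : Subgroup G} [Z.Normal] (hP : IsPGroup 2 P) (hPH : P ≤ H)
    (hN : IsPGroup 2 N) (hNH : ∀ h ∈ H, ∀ n ∈ N, h * n * h⁻¹ ∈ N) (hNZ : ∃ n ∈ N, n ∉ Z)
    (hdiag : ∀ n, (∀ g ∈ P, g * n * g⁻¹ * n⁻¹ ∈ Z) → n * n = 1)
    (hcl : ∀ M : Subgroup G, M ≤ N → (∀ h ∈ H, ∀ n ∈ M, h * n * h⁻¹ ∈ M) → (∀ n ∈ M, n * n ∈ Z) →
      (∀ n ∈ M, ∀ m ∈ M, n * m * n⁻¹ * m⁻¹ ∈ Z) → (∃ n ∈ M, n ∉ Z) → ∃ b ∈ M, b ∉ Z ∧ ∀ c ∈ M, c * b = b * c) :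
    ∃ A : Subgroup G, (∀ h ∈ H, ∀ a ∈ A, h * a * h⁻¹ ∈ A) ∧ (∀ a ∈ A, a * a = 1) ∧
      (∀ a ∈ A, ∀ b ∈ A, a * b = b * a) ∧ ∃ a ∈ A, a ∉ Z := by
  -- a noncentral involution centralised by `P` modulo `Z`
  have key : ∀ M : Subgroup G, M ≤ N → (∀ h ∈ H, ∀ n ∈ M, h * n * h⁻¹ ∈ M) → (∃ n ∈ M, n ∉ Z) →
      ∃ n ∈ M, n ∉ Z ∧ n * n = 1 ∧ ∀ g ∈ M, g * n * g⁻¹ * n⁻¹ ∈ Z := by
    intro M hMN hMH hMZ
    have hPM : IsPGroup 2 (P ⊔ M : Subgroup G) :=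
      hP.to_sup_of_normal_right' (hN.to_le hMN) (le_norm fun g hg => hMH g (hPH hg))
    have hle : P ⊔ M ≤ normalizer (M : Set G) :=
      sup_le (le_norm fun g hg => hMH g (hPH hg)) (le_norm fun g hg n hn => M.mul_mem (M.mul_mem hg hn) (M.inv_mem hg))
    obtain ⟨n, hn, hnZ, h1⟩ := exists_fix (Z := Z) hPM le_sup_right
      (fun g hg n hn => (mem_normalizer_iff.1 (hle hg) n).1 hn) hMZ
    exact ⟨n, hn, hnZ, hdiag n fun g hg => h1 g ((le_sup_left : P ≤ P ⊔ M) hg), fun g hg =>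
      h1 g ((le_sup_right : M ≤ P ⊔ M) hg)⟩
  obtain ⟨n, hn, hnZ, hn2, hnc⟩ := key N le_rfl hNH hNZ
  have hM0 : n ∈ Om2 N Z := by
    refine ⟨hn, ?_, fun k hk => ?_⟩
    · rw [← QuotientGroup.mk_mul, hn2, QuotientGroup.mk_one]
    · have h1 := (QuotientGroup.eq_one_iff _).2 (hnc k hk)
      rw [QuotientGroup.mk_mul, QuotientGroup.mk_mul, QuotientGroup.mk_mul, QuotientGroup.mk_inv, QuotientGroup.mk_inv,
        mul_inv_eq_one, mul_inv_eq_iff_eq_mul] at h1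
      exact h1
  have hMN : Om2 N Z ≤ N := fun m hm => hm.1
  obtain ⟨b, hb, hbZ, hbc⟩ := hcl (Om2 N Z) hMN (Om2_conj hNH) (fun m hm => by
      refine (QuotientGroup.eq_one_iff _).1 ?_
      rw [QuotientGroup.mk_mul]; exact hm.2.1) (fun m hm k hk => by
      refine (QuotientGroup.eq_one_iff _).1 ?_
      rw [QuotientGroup.mk_mul, QuotientGroup.mk_mul, QuotientGroup.mk_mul, QuotientGroup.mk_inv, QuotientGroup.mk_inv,
        mul_inv_eq_one, mul_inv_eq_iff_eq_mul]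
      exact hk.2.2 m hm.1) ⟨n, hM0, hnZ⟩
  -- the centre of `Om2 N Z`
  let A₀ : Subgroup G := Om2 N Z ⊓ centralizer (Om2 N Z : Set G)
  have memA₀ : ∀ a, a ∈ A₀ ↔ a ∈ Om2 N Z ∧ ∀ c ∈ Om2 N Z, c * a = a * c := by
    intro a
    show a ∈ Om2 N Z ∧ a ∈ centralizer (Om2 N Z : Set G) ↔ _
    rw [mem_centralizer_iff]
    rfl
  have hA₀H : ∀ h ∈ H, ∀ a ∈ A₀, h * a * h⁻¹ ∈ A₀ := by
    intro h hh a ha
    rw [memA₀] at ha ⊢
    refine ⟨Om2_conj hNH h hh a ha.1, fun c hc => ?_⟩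
    have h1 : h⁻¹ * c * h ∈ Om2 N Z := by
      have := Om2_conj hNH h⁻¹ (H.inv_mem hh) c hc
      rwa [inv_inv] at this
    have h2 := ha.2 _ h1
    have h3 : c * (h * a * h⁻¹) = h * (h⁻¹ * c * h * a) * h⁻¹ := by group
    rw [h3, h2]; group
  have hA₀c : ∀ a ∈ A₀, ∀ b ∈ A₀, a * b = b * a := fun a ha b hb => ((memA₀ b).1 hb).2 a ((memA₀ a).1 ha).1
  obtain ⟨m, hm, hmZ, hm2, -⟩ := key A₀ (fun a ha => hMN ((memA₀ a).1 ha).1) hA₀H ⟨b, (memA₀ b).2 ⟨hb, hbc⟩, hbZ⟩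
  refine ⟨{ carrier := {a | a ∈ A₀ ∧ a * a = 1}
            one_mem' := ⟨A₀.one_mem, one_mul 1⟩
            mul_mem' := ?_
            inv_mem' := ?_ }, ?_, fun a ha => ha.2, fun a ha b hb => hA₀c a ha.1 b hb.1, ⟨m, ⟨hm, hm2⟩, hmZ⟩⟩
  · rintro a b ⟨ha, ha2⟩ ⟨hb, hb2⟩
    refine ⟨A₀.mul_mem ha hb, ?_⟩
    calc a * b * (a * b) = a * (b * a) * b := by simp only [mul_assoc]
      _ = (a * a) * (b * b) := by rw [hA₀c b hb a ha]; simp only [mul_assoc]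
      _ = 1 := by rw [ha2, hb2, one_mul]
  · rintro a ⟨ha, ha2⟩
    exact ⟨A₀.inv_mem ha, by rw [← mul_inv_rev, ha2, inv_one]⟩
  · rintro h hh a ⟨ha, ha2⟩
    refine ⟨hA₀H h hh a ha, ?_⟩
    have : h * a * h⁻¹ * (h * a * h⁻¹) = h * (a * a) * h⁻¹ := by group
    rw [this, ha2, mul_one, mul_inv_cancel]

end Cfsg.Agent.H358.D4
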