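import Cfsg.Agent.H561.D4.Boxes
import Cfsg.Agent.H358.D4.Dims
import Cfsg.Agent.H358.D4.Grp

/-!
# S4311, BOX A: the monomial 2-group (helper358)
-/

set_option autoImplicit false
set_option linter.unusedSectionVars false

namespace Cfsg.Agent.H358.D4

open Module QuadraticMap Cfsg.Agent.H167.OP Cfsg.Agent.H170.HL Cfsg.Agent.H170.HL.OmRow Cfsg.Agent.H556.Om
open Cfsg Subgroup Cfsg.Agent.H485.RV Cfsg.Agent.H561.RV Cfsg.Agent.H561.D4

variable {F : Type} [Field F] {ι : Type} [Fintype ι] [DecidableEq ι] {Q : QuadraticForm F (ι → F)}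
  {E : Fin 2 × A4 → ι → F}

theorem env (h : Q8 Q) : Env (polarBilin Q) (rep (inc (⇑Q))) where
  two := h.two
  three := h.three
  symm := polar_symm
  nd := fun u hu => h.gq.nd.1 u hu
  iso := polar_omega
  inj := rep_inj
  cen g := by
    have h1 : g ∈ Subgroup.center (Cfsg.Omega F (⇑Q)) ↔ inc (⇑Q) g = 1 ∨ inc (⇑Q) g = -1 :=
      Cfsg.Agent.LieClassical.OmegaCenter.mem_center_omega_iff Q h.gq.nd h.gq.card h.gq.sing g
    rw [h1]
    constructor
    · rintro (h2 | h2)
      · left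
        apply LinearMap.ext
        intro v
        rw [rep_apply, h2, Matrix.one_mulVec]; rfl
      · right
        apply LinearMap.ext
        intro v
        rw [rep_apply, h2, Matrix.neg_mulVec, Matrix.one_mulVec]; rfl
    · rintro (h2 | h2)
      · left
        rw [rep_inj (h2.trans (map_one _).symm), map_one]
      · right
        apply Matrix.toLin'.injective
        apply LinearMap.ext
        intro v
        have h3 : rep (inc (⇑Q)) g v = -v := by rw [h2]; rfl
        rw [rep_apply] at h3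
        rw [Matrix.toLin'_apply, h3, Matrix.toLin'_apply, Matrix.neg_mulVec, Matrix.one_mulVec]
  dim := by rw [Module.finrank_fintype_fun_eq_card, h.dim]

/-- the frame is complete -/
theorem complete (h : Q8 Q) (hF : Frame (polarBilin Q) E) {w : ι → F} (hw : ∀ j, polarBilin Q (E j) w = 0) : w = 0 := by
  apply (env h).nd
  intro v
  rw [polar_symm]
  have h1 : Submodule.span F (Set.range E) = ⊤ :=
    (hF.linearIndependent h.two).span_eq_top_of_card_eq_finrank' (by rw [(env h).dim]; rfl)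
  have h2 : v ∈ Submodule.span F (Set.range E) := by rw [h1]; trivial
  induction h2 using Submodule.span_induction with
  | mem v hv =>
    obtain ⟨j, rfl⟩ := hv
    exact hw j
  | zero => rw [map_zero, LinearMap.zero_apply]
  | add v w _ _ h1 h2 => rw [map_add, LinearMap.add_apply, h1, h2, add_zero]
  | smul c v _ h1 => rw [map_smul, LinearMap.smul_apply, h1, smul_zero]

/-- sign changes -/
theorem sg_apply (h2 : (2 : F) ≠ 0) {i j : Fin 2 × A4} (hij : i ≠ j) (u : ι → F) :
    mono (polarBilin Q) E (H556.Om.sg F i j) id u = u - (polarBilin Q (E i) u • E i + polarBilin Q (E j) u • E j) := by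
  rw [mono_apply, sub_eq_add_neg]
  congr 1
  rw [Finset.sum_eq_add i j hij]
  · have e1 : ∀ e : ι → F, (2 : F)⁻¹ • ((-1 : F) • e - e) = -e := by
      intro e
      have : (-1 : F) • e - e = -((2 : F) • e) := by rw [two_smul, neg_one_smul]; abel
      rw [this, smul_neg, smul_smul, inv_mul_cancel₀ h2, one_smul]
    have e2 : H556.Om.sg F i j i = -1 := if_pos (Or.inl rfl)
    have e3 : H556.Om.sg F i j j = -1 := if_pos (Or.inr rfl)
    rw [e2, e3, id, id, e1, e1, smul_neg, smul_neg, neg_add]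
  · rintro c - ⟨h3, h4⟩
    have e1 : H556.Om.sg F i j c = 1 := if_neg (by tauto)
    rw [e1, one_smul, id, sub_self, smul_zero, smul_zero]
  · intro h; exact absurd (Finset.mem_univ i) h
  · intro h; exact absurd (Finset.mem_univ j) h

theorem card_off : ∀ i j : Fin 2 × A4, 5 ≤ Fintype.card {k : Fin 2 × A4 // k ≠ i ∧ k ≠ j} := by
  decide

/-- the elements of `Ω` commuting with `PM` modulo the centre are involutions -/
theorem diag (h : Q8 Q) (hF : Frame (polarBilin Q) E) {n : Cfsg.Omega F (⇑Q)}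
    (hn : ∀ g ∈ PM h.two hF, g * n * g⁻¹ * n⁻¹ ∈ Subgroup.center (Cfsg.Omega F (⇑Q))) : n * n = 1 := by
  have EE := env h
  -- `n` commutes with the sign changes
  have h1 : ∀ i j, i ≠ j → ∃ t : Cfsg.Omega F (⇑Q),
      rep (inc (⇑Q)) t = mono (polarBilin Q) E (H556.Om.sg F i j) id ∧ t * n = n * t := by
    intro i j hij
    obtain ⟨t, ht⟩ := exists_sg h.gq h.two hF hij
    refine ⟨t, ht, ?_⟩
    by_contra hne
    have h3 := EE.anti (hn t (sg_mem_PM h.two hF ht)) hne
    have hte : ∀ k : {k : Fin 2 × A4 // k ≠ i ∧ k ≠ j}, rep (inc (⇑Q)) t (E k) = E k := by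
      rintro ⟨k, hk1, hk2⟩
      rw [ht, mono_e hF h.two]
      have e1 : H556.Om.sg F i j k = 1 := if_neg (by tauto)
      rw [e1, one_smul]; rfl
    have hcross : ∀ k l : {k : Fin 2 × A4 // k ≠ i ∧ k ≠ j}, polarBilin Q (E k) (rep (inc (⇑Q)) n (E l)) = 0 := by
      intro k l
      have e1 := polar_omega t (E k) (rep (inc (⇑Q)) n (E l))
      rw [hte k, h3, hte l, map_neg] at e1
      have e2 : (2 : F) * polarBilin Q (E k) (rep (inc (⇑Q)) n (E l)) = 0 := by linear_combination -e1
      exact (mul_eq_zero.1 e2).resolve_left h.two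
    have hli : LinearIndependent F (Sum.elim (fun k : {k : Fin 2 × A4 // k ≠ i ∧ k ≠ j} => E k)
        (fun k : {k : Fin 2 × A4 // k ≠ i ∧ k ≠ j} => rep (inc (⇑Q)) n (E k))) := by
      refine indep_of_orth (B := polarBilin Q) ?_ ?_
      · rintro (k | k) (l | l) hkl
        · exact hF.orth _ _ fun h => hkl (congrArg Sum.inl (Subtype.ext h))
        · exact hcross k l
        · show polarBilin Q (rep (inc (⇑Q)) n (E k)) (E l) = 0
          rw [polar_symm]; exact hcross l k
        · show polarBilin Q (rep (inc (⇑Q)) n (E k)) (rep (inc (⇑Q)) n (E l)) = 0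
          rw [polar_omega]
          exact hF.orth _ _ fun h => hkl (congrArg Sum.inr (Subtype.ext h))
      · rintro (k | k)
        · show polarBilin Q (E k) (E k) ≠ 0
          rw [hF.self]; exact h.two
        · show polarBilin Q (rep (inc (⇑Q)) n (E k)) (rep (inc (⇑Q)) n (E k)) ≠ 0
          rw [polar_omega, hF.self]; exact h.two
    have h4 := hli.fintype_card_le_finrank
    rw [Fintype.card_sum, EE.dim] at h4
    have h5 := card_off i j
    omega
  -- `n` is diagonal
  have h3 : ∀ l k : Fin 2 × A4, l ≠ k → polarBilin Q (E l) (rep (inc (⇑Q)) n (E k)) = 0 := by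
    intro l k hlk
    obtain ⟨m, hml, hmk⟩ : ∃ m, m ≠ l ∧ m ≠ k := by
      have h4 : 0 < Fintype.card {m : Fin 2 × A4 // m ≠ l ∧ m ≠ k} := lt_of_lt_of_le (by norm_num) (card_off l k)
      obtain ⟨⟨m, hm⟩⟩ := Fintype.card_pos_iff.1 h4
      exact ⟨m, hm⟩
    obtain ⟨t, ht, htn⟩ := h1 l m (Ne.symm hml)
    have e1 := polar_omega t (E l) (rep (inc (⇑Q)) n (E k))
    have e2 : rep (inc (⇑Q)) t (E l) = (-1 : F) • E l := by
      rw [ht, mono_e hF h.two]
      have e1 : H556.Om.sg F l m l = -1 := if_pos (Or.inl rfl)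
      rw [e1]; rfl
    have e3 : rep (inc (⇑Q)) t (E k) = E k := by
      rw [ht, mono_e hF h.two]
      have e1 : H556.Om.sg F l m k = 1 := if_neg (by
        rintro (h | h)
        · exact hlk h.symm
        · exact hmk h.symm)
      rw [e1, one_smul]; rfl
    have e4 : rep (inc (⇑Q)) t (rep (inc (⇑Q)) n (E k)) = rep (inc (⇑Q)) n (E k) := by
      rw [← mul_ap, htn, mul_ap, e3]
    rw [e4, e2, map_smul, LinearMap.smul_apply, smul_eq_mul, neg_one_mul] at e1
    have e5 : (2 : F) * polarBilin Q (E l) (rep (inc (⇑Q)) n (E k)) = 0 := by linear_combination -e1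
    exact (mul_eq_zero.1 e5).resolve_left h.two
  have h4 : ∀ k, ∃ c : F, c * c = 1 ∧ rep (inc (⇑Q)) n (E k) = c • E k := by
    intro k
    have e1 : rep (inc (⇑Q)) n (E k) = ((2 : F)⁻¹ * polarBilin Q (E k) (rep (inc (⇑Q)) n (E k))) • E k := by
      rw [← sub_eq_zero]
      apply complete h hF
      intro l
      by_cases hlk : l = k
      · subst hlk
        rw [map_sub, map_smul, hF.self, smul_eq_mul, mul_comm _ (2 : F), ← mul_assoc, mul_inv_cancel₀ h.two, one_mul,
          sub_self]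
      · rw [map_sub, map_smul, h3 l k hlk, hF.orth l k hlk, smul_zero, sub_zero]
    refine ⟨_, ?_, e1⟩
    have e2 := polar_omega n (E k) (E k)
    rw [e1, map_smul, map_smul, LinearMap.smul_apply, hF.self, smul_eq_mul, smul_eq_mul, ← mul_assoc] at e2
    exact (mul_eq_right₀ h.two).1 e2
  apply rep_inj (Q := Q)
  refine ext_frame hF h.two (fun k => ?_) fun w hw => ?_
  · obtain ⟨c, hc, hnc⟩ := h4 k
    rw [mul_ap, hnc, map_smul, hnc, smul_smul, hc, one_smul, map_one]; rfl
  · rw [complete h hF hw, map_zero, map_zero]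

/-- `PM` is transitive on the frame -/
theorem trans (h : Q8 Q) (hF : Frame (polarBilin Q) E) (j k : Fin 2 × A4) :
    ∃ g ∈ PM h.two hF, rep (inc (⇑Q)) g (E j) = E k := by
  have h1 : Equiv.Perm.sign (pp (Equiv.swap j.1 k.1) (fun _ => false) fun _ => j.2 + k.2) = 1 := sign_pp _ _ _
  obtain ⟨g, hg⟩ := exists_perm h.gq h.two hF h1
  refine ⟨g, perm_mem_PM h.two hF (pp_mem _ _ _) hg, ?_⟩
  rw [hg, mono_e hF h.two, one_smul]
  obtain ⟨k', a⟩ := j
  rw [pp_apply]
  dsimp only
  rw [Equiv.swap_apply_left]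
  have h2 : lin false a + (a + k.2) = k.2 := by
    simp only [lin, Bool.false_eq_true, if_false]
    rw [← add_assoc, CharTwo.add_self_eq_zero, zero_add]
  rw [h2]

/-- `PM` is irreducible -/
theorem irr (h : Q8 Q) (hF : Frame (polarBilin Q) E) {H : Subgroup (Cfsg.Omega F (⇑Q))} (hPH : PM h.two hF ≤ H)
    (W : Submodule F (ι → F)) (hW : W ≠ ⊥) (hWH : ∀ g ∈ H, ∀ w ∈ W, rep (inc (⇑Q)) g w ∈ W) : W = ⊤ := by
  obtain ⟨u, hu, hu0⟩ := Submodule.exists_mem_ne_zero_of_ne_bot hW
  obtain ⟨k, hk⟩ : ∃ k, polarBilin Q (E k) u ≠ 0 := by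
    by_contra hcon
    push Not at hcon
    exact hu0 (complete h hF hcon)
  have h1 : ∀ i j, i ≠ j → ∀ u ∈ W, polarBilin Q (E i) u • E i + polarBilin Q (E j) u • E j ∈ W := by
    intro i j hij u hu
    obtain ⟨t, ht⟩ := exists_sg h.gq h.two hF hij
    have h3 := hWH t (hPH (sg_mem_PM h.two hF ht)) u hu
    rw [ht, sg_apply h.two hij] at h3
    have h4 := W.sub_mem hu h3
    rwa [sub_sub_cancel] at h4
  have hkW : E k ∈ W := by
    have h4 : 1 < Fintype.card {m : Fin 2 × A4 // m ≠ k ∧ m ≠ k} := lt_of_lt_of_le (by norm_num) (card_off k k)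
    obtain ⟨⟨a, ha, _⟩, ⟨b, hb, _⟩, hab⟩ := Fintype.exists_pair_of_one_lt_card h4
    have hab' : a ≠ b := fun h => hab (Subtype.ext h)
    have h5 := h1 k b (Ne.symm hb) _ (h1 k a (Ne.symm ha) u hu)
    rw [map_add, map_add, map_smul, map_smul, map_smul, map_smul, hF.self, hF.orth k a (Ne.symm ha),
      hF.orth b k hb, hF.orth b a (Ne.symm hab')] at h5
    simp only [smul_eq_mul, mul_zero, add_zero, zero_smul] at h5
    have h6 := W.smul_mem (polarBilin Q (E k) u * 2)⁻¹ h5
    rwa [smul_smul, inv_mul_cancel₀ (mul_ne_zero hk h.two), one_smul] at h6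
  have h7 : ∀ j, E j ∈ W := by
    intro j
    obtain ⟨g, hg, hgj⟩ := trans h hF k j
    rw [← hgj]
    exact hWH g (hPH hg) _ hkW
  have h8 : Submodule.span F (Set.range E) = ⊤ :=
    (hF.linearIndependent h.two).span_eq_top_of_card_eq_finrank' (by rw [(env h).dim]; rfl)
  rw [eq_top_iff, ← h8, Submodule.span_le]
  rintro _ ⟨j, rfl⟩
  exact h7 j

/-- `H` contains a group `PM` -/
theorem exists_PM [Finite F] (h : Q8 Q) {H : Subgroup (Cfsg.Omega F (⇑Q))} (hi : ¬ 2 ∣ H.index) :
    ∃ (E : Fin 2 × A4 → ι → F) (hF : Frame (polarBilin Q) E), PM h.two hF ≤ H := by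
  have hfin : Finite (Cfsg.Omega F (⇑Q)) := inferInstance
  obtain ⟨E, hF⟩ := h.frame
  obtain ⟨c, hc⟩ := H556.Om.exists_conj hi (PM_isPGroup h.two hF)
  refine ⟨_, hF.map (polar_omega c), ?_⟩
  rintro x ⟨s, σ, hs, hσ, hx⟩
  have h1 := hc _ ⟨s, σ, hs, hσ, conj_mono hx⟩
  have h2 : c * (c⁻¹ * x * c) * c⁻¹ = x := by group
  rwa [h2] at h1

end Cfsg.Agent.H358.D4
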