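import Cfsg.Agent.H358.D4.Env
import Mathlib.GroupTheory.Sylow

/-!
# S4311, BOX A: the 3-group `C₃ wr C₃` (helper358)

`exists_pair`: if `x` has order three and rank two, `w` has order three and `[V,x]`, `w [V,x]` are orthogonal then `x`, `w` generate a 3-group,
so simultaneous conjugates belong to every subgroup of index prime to three.
-/

set_option autoImplicit false

namespace Cfsg.Agent.H358.D4

open Module Cfsg.Agent.H167.OP

variable {F : Type*} [Field F] {V : Type*} [AddCommGroup V] [Module F V] {G : Type*} [Group G]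
  {B : V →ₗ[F] V →ₗ[F] F} {ρ : Representation F G V}

/-- orthogonal supports -/
def Perp (B : V →ₗ[F] V →ₗ[F] F) (ρ : Representation F G V) (x : G) (v : V) (x' : G) (v' : V) : Prop :=
  ∀ s ∈ Submodule.span F {v, ρ x v}, ∀ s' ∈ Submodule.span F {v', ρ x' v'}, B s s' = 0

theorem Perp.of {x x' : G} {v v' : V} (h00 : B v v' = 0) (h01 : B v (ρ x' v') = 0) (h10 : B (ρ x v) v' = 0)
    (h11 : B (ρ x v) (ρ x' v') = 0) : Perp B ρ x v x' v' := by
  intro s hs s' hs'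
  obtain ⟨a, b, rfl⟩ := Submodule.mem_span_pair.1 hs
  obtain ⟨c, d, rfl⟩ := Submodule.mem_span_pair.1 hs'
  rw [map_add, map_add, map_smul, map_smul, map_smul, map_smul, LinearMap.add_apply, LinearMap.add_apply,
    LinearMap.smul_apply, LinearMap.smul_apply, LinearMap.smul_apply, LinearMap.smul_apply, h00, h01, h10, h11]
  simp

theorem Perp.symm (E : Env B ρ) {x x' : G} {v v' : V} (h : Perp B ρ x v x' v') : Perp B ρ x' v' x v :=
  fun s hs s' hs' => by rw [E.symm]; exact h s' hs' s hs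

theorem conj_ap (g x : G) (v : V) : ρ (g * x * g⁻¹) (ρ g v) = ρ g (ρ x v) := by
  rw [mul_ap, mul_ap, inv_ap]

theorem Perp.conj (E : Env B ρ) {x x' : G} {v v' : V} (h : Perp B ρ x v x' v') (g : G) :
    Perp B ρ (g * x * g⁻¹) (ρ g v) (g * x' * g⁻¹) (ρ g v') := by
  have h1 : v ∈ Submodule.span F {v, ρ x v} := Submodule.subset_span (Or.inl rfl)
  have h2 : ρ x v ∈ Submodule.span F {v, ρ x v} := Submodule.subset_span (Or.inr rfl)
  have h3 : v' ∈ Submodule.span F {v', ρ x' v'} := Submodule.subset_span (Or.inl rfl)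
  have h4 : ρ x' v' ∈ Submodule.span F {v', ρ x' v'} := Submodule.subset_span (Or.inr rfl)
  refine Perp.of ?_ ?_ ?_ ?_
  · rw [E.iso]; exact h _ h1 _ h3
  · rw [conj_ap, E.iso]; exact h _ h1 _ h4
  · rw [conj_ap, E.iso]; exact h _ h2 _ h3
  · rw [conj_ap, conj_ap, E.iso]; exact h _ h2 _ h4

theorem Thr.fixes (E : Env B ρ) {x : G} {v : V} (T : Thr B ρ x v) {u : V}
    (h : ∀ s ∈ Submodule.span F {v, ρ x v}, B u s = 0) : ρ x u = u := by
  rw [← sub_eq_zero]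
  apply E.nd
  intro y
  have h1 : B (ρ x u) y = B u (ρ x⁻¹ y) := by
    rw [← E.iso x u, ap_inv]
  have h2 : ρ x⁻¹ y - y = -(ρ x (ρ x⁻¹ y) - ρ x⁻¹ y) := by rw [ap_inv]; abel
  rw [map_sub, LinearMap.sub_apply, h1, ← map_sub, h2, map_neg, h _ (T.rng _), neg_zero]

theorem Thr.comm (E : Env B ρ) {x x' : G} {v v' : V} (T : Thr B ρ x v) (T' : Thr B ρ x' v') (h : Perp B ρ x v x' v') :
    x * x' = x' * x := by
  apply E.inj
  apply LinearMap.ext
  intro u
  rw [mul_ap, mul_ap]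
  have h1 : ρ x (ρ x' u - u) = ρ x' u - u := T.fixes E fun s hs => by
    rw [E.symm]; exact h s hs _ (T'.rng u)
  have h2 : ρ x' (ρ x u - u) = ρ x u - u := T'.fixes E fun s hs => h _ (T.rng u) s hs
  rw [map_sub] at h1 h2
  have h3 : ρ x (ρ x' u) = ρ x' u - u + ρ x u := eq_add_of_sub_eq h1
  have h4 : ρ x' (ρ x u) = ρ x u - u + ρ x' u := eq_add_of_sub_eq h2
  rw [h3, h4]; abel

theorem isPGroup_zpowers {x : G} (hx : x ^ 3 = 1) : IsPGroup 3 (Subgroup.zpowers x) := by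
  rintro ⟨y, hy⟩
  obtain ⟨k, rfl⟩ := hy
  refine ⟨1, ?_⟩
  apply Subtype.ext
  rw [Subgroup.coe_pow, Subgroup.coe_one]
  show (x ^ k) ^ 3 ^ 1 = 1
  rw [pow_one, ← zpow_natCast, ← zpow_mul, mul_comm, zpow_mul]
  have : x ^ ((3 : ℕ) : ℤ) = 1 := by rw [zpow_natCast, hx]
  rw [this, one_zpow]

theorem isPGroup_sup {K : Subgroup G} {x : G} (hK : IsPGroup 3 K) (hx : x ^ 3 = 1) (h : ∀ n ∈ K, x * n * x⁻¹ ∈ K) :
    IsPGroup 3 (Subgroup.zpowers x ⊔ K : Subgroup G) := by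
  refine (isPGroup_zpowers hx).to_sup_of_normal_right' hK ?_
  rw [Subgroup.zpowers_le, Subgroup.mem_normalizer_iff]
  intro n
  refine ⟨h n, fun hn => ?_⟩
  have h1 := h _ (h _ hn)
  have h2 : x * (x * (x * n * x⁻¹) * x⁻¹) * x⁻¹ = x ^ 3 * n * (x ^ 3)⁻¹ := by
    rw [pow_succ, pow_two]
    group
  rw [h2, hx, one_mul, inv_one, mul_one] at h1
  exact h1

/-- `p`-subgroups are conjugate into subgroups of index prime to `p` -/
theorem exists_conj_p [Finite G] {p : ℕ} (hp : p.Prime) {K P : Subgroup G} (hK : ¬ p ∣ K.index) (hP : IsPGroup p P) :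
    ∃ c : G, ∀ x ∈ P, c * x * c⁻¹ ∈ K := by
  have := Fact.mk hp
  have h2 : ¬ p ∣ Nat.card (G ⧸ K) := hK
  obtain ⟨a, ha⟩ := hP.nonempty_fixed_point_of_prime_not_dvd_card (G ⧸ K) h2
  obtain ⟨c, rfl⟩ := QuotientGroup.mk_surjective a
  refine ⟨c⁻¹, fun x hx => ?_⟩
  have h3 := ha ⟨x, hx⟩
  have h4 : (QuotientGroup.mk (x * c) : G ⧸ K) = QuotientGroup.mk c := h3
  rw [QuotientGroup.eq] at h4
  have h5 := K.inv_mem h4
  simpa [mul_assoc] using h5

/-- **simultaneous conjugates in `H`** -/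
theorem exists_pair [Finite G] (E : Env B ρ) {x w : G} {v : V} (T : Thr B ρ x v) (hw : w ^ 3 = 1)
    (hp : Perp B ρ x v (w * x * w⁻¹) (ρ w v)) {H : Subgroup G} (hH : ¬ 3 ∣ H.index) :
    ∃ (x w : G) (v : V), Thr B ρ x v ∧ x ∈ H ∧ w ^ 3 = 1 ∧ w ∈ H ∧
      ∀ s ∈ Submodule.span F {v, ρ x v}, ∀ s' ∈ Submodule.span F {v, ρ x v}, B s (ρ w s') = 0 := by
  have T1 := T.conj E w
  have T2 := T1.conj E w
  have p12 : Perp B ρ (w * x * w⁻¹) (ρ w v) (w * (w * x * w⁻¹) * w⁻¹) (ρ w (ρ w v)) := hp.conj E w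
  have p20 : Perp B ρ (w * (w * x * w⁻¹) * w⁻¹) (ρ w (ρ w v)) x v := by
    have h1 := p12.conj E w
    have h2 : w * (w * (w * x * w⁻¹) * w⁻¹) * w⁻¹ = w ^ 3 * x * (w ^ 3)⁻¹ := by
      rw [pow_succ, pow_two]; group
    have h3 : ρ w (ρ w (ρ w v)) = v := by
      rw [← mul_ap, ← mul_ap, ← pow_two, ← pow_succ, hw, one_ap]
    rw [h2, hw, one_mul, inv_one, mul_one, h3] at h1
    exact h1
  have c01 := T.comm E T1 hp
  have c12 := T1.comm E T2 p12
  have c20 := T2.comm E T p20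
  obtain ⟨y, hy⟩ : ∃ y, y = w * x * w⁻¹ := ⟨_, rfl⟩
  obtain ⟨z, hz⟩ : ∃ z, z = w * y * w⁻¹ := ⟨_, rfl⟩
  rw [← hy] at c01 c12 c20 T1 T2
  rw [← hz] at c12 c20 T2
  have hzx : w * z * w⁻¹ = x := by
    have h2 : w * (w * (w * x * w⁻¹) * w⁻¹) * w⁻¹ = w ^ 3 * x * (w ^ 3)⁻¹ := by
      rw [pow_succ, pow_two]; group
    rw [hz, hy, h2, hw, one_mul, inv_one, mul_one]
  have k1 : IsPGroup 3 (Subgroup.zpowers y ⊔ Subgroup.zpowers x : Subgroup G) := by
    refine isPGroup_sup (isPGroup_zpowers T.x3) T1.x3 ?_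
    rintro n ⟨k, rfl⟩
    have h1 : y * x ^ k * y⁻¹ = x ^ k := by
      have h2 : Commute y (x ^ k) := (Commute.zpow_right (show Commute y x from c01.symm) k)
      rw [h2.eq, mul_inv_cancel_right]
    show y * x ^ k * y⁻¹ ∈ _
    rw [h1]
    exact ⟨k, rfl⟩
  have k2 : IsPGroup 3 (Subgroup.zpowers z ⊔ (Subgroup.zpowers y ⊔ Subgroup.zpowers x) : Subgroup G) := by
    refine isPGroup_sup k1 T2.x3 ?_
    intro n hn
    have h1 : Subgroup.zpowers y ⊔ Subgroup.zpowers x ≤ Subgroup.centralizer {z} :=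
      sup_le (Subgroup.zpowers_le.2 (Subgroup.mem_centralizer_singleton_iff.2 c12))
        (Subgroup.zpowers_le.2 (Subgroup.mem_centralizer_singleton_iff.2 c20.symm))
    have h2 := Subgroup.mem_centralizer_singleton_iff.1 (h1 hn)
    rw [← h2, mul_inv_cancel_right]
    exact hn
  have hxm : x ∈ Subgroup.zpowers z ⊔ (Subgroup.zpowers y ⊔ Subgroup.zpowers x) :=
    (le_sup_right.trans le_sup_right : Subgroup.zpowers x ≤ _) (Subgroup.mem_zpowers x)
  have hym : y ∈ Subgroup.zpowers z ⊔ (Subgroup.zpowers y ⊔ Subgroup.zpowers x) :=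
    (le_sup_left.trans le_sup_right : Subgroup.zpowers y ≤ _) (Subgroup.mem_zpowers y)
  have hzm : z ∈ Subgroup.zpowers z ⊔ (Subgroup.zpowers y ⊔ Subgroup.zpowers x) :=
    (le_sup_left : Subgroup.zpowers z ≤ _) (Subgroup.mem_zpowers z)
  obtain ⟨K, hK⟩ : ∃ K, K = Subgroup.zpowers z ⊔ (Subgroup.zpowers y ⊔ Subgroup.zpowers x) := ⟨_, rfl⟩
  rw [← hK] at k2 hxm hym hzm
  have k3 : IsPGroup 3 (Subgroup.zpowers w ⊔ K : Subgroup G) := by
    refine isPGroup_sup k2 hw ?_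
    have h1 : K ≤ K.comap (MulAut.conj w).toMonoidHom := by
      nth_rewrite 1 [hK]
      refine sup_le (Subgroup.zpowers_le.2 ?_) (sup_le (Subgroup.zpowers_le.2 ?_) (Subgroup.zpowers_le.2 ?_))
      · show w * z * w⁻¹ ∈ K
        rw [hzx]; exact hxm
      · show w * y * w⁻¹ ∈ K
        rw [← hz]; exact hzm
      · show w * x * w⁻¹ ∈ K
        rw [← hy]; exact hym
    exact fun n hn => h1 hn
  obtain ⟨g, hg⟩ := exists_conj_p Nat.prime_three hH k3
  refine ⟨g * x * g⁻¹, g * w * g⁻¹, ρ g v, T.conj E g, hg _ ((show K ≤ Subgroup.zpowers w ⊔ K from le_sup_right) hxm), ?_,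
    hg _ ((show Subgroup.zpowers w ≤ Subgroup.zpowers w ⊔ K from le_sup_left) (Subgroup.mem_zpowers w)), ?_⟩
  · rw [conj_pow, hw, mul_one, mul_inv_cancel]
  · intro s hs s' hs'
    have h1 := hp.conj E g
    refine h1 s hs _ ?_
    obtain ⟨a, b, rfl⟩ := Submodule.mem_span_pair.1 hs'
    refine Submodule.mem_span_pair.2 ⟨a, b, ?_⟩
    rw [map_add, map_smul, map_smul, conj_ap, conj_ap, conj_ap, conj_ap, conj_ap]

end Cfsg.Agent.H358.D4
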